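import Cfsg.Agent.H58.PSLThree.Criterion

/-!
Simplicity of a 2-fusion system from an embedded involution centralizer with odd-index image.
-/
set_option autoImplicit false

namespace Cfsg.Agent.H58.PSUThree

open Cfsg

variable {G U : Type*} [Group G] [Group U] {e : U →* G}

lemma injOn (hker : ∀ {A : U}, e A = 1 → A ^ 3 = 1 ∧ ∀ B : U, A * B = B * A) {P : Subgroup U}
    (hP : IsPGroup 2 P) : Function.Injective (e.comp P.subtype) := by
  rw [injective_iff_map_eq_one]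
  intro x hx
  obtain ⟨k, hk⟩ := hP x
  obtain ⟨h3, -⟩ := hker (A := (x : U)) hx
  exact PSLThree.eq_one_of_pow_two_pow_of_cube hk (Subtype.ext (by simpa using h3))

/-- The criterion. -/
theorem isSimple_of_model [Finite G] [Finite U] (e : U →* G) (t : U) (ht : ∀ x, t * x = x * t)
    (ht2 : t * t = 1) (ht1 : t ≠ 1)
    (hker : ∀ {A : U}, e A = 1 → A ^ 3 = 1 ∧ ∀ B : U, A * B = B * A)
    (hinvol : ∀ x : G, orderOf x = 2 → ∃ g, g * e t * g⁻¹ = x)
    (hcent : ∀ {g : G}, g * e t = e t * g → ∃ A, e A = g)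
    (P : Subgroup U) (hP : IsPGroup 2 P) (hidx : ¬ 2 ∣ (P.map e).index) (hneg : t ∈ P)
    (hN : ∀ A : U, (∀ p ∈ P, A * p * A⁻¹ ∈ P) →
      ∃ z ∈ Subgroup.center U, ∃ s ∈ P, A = z * s)
    (hZ : ∀ p ∈ P, p * p = 1 → (∀ r ∈ P, p * r = r * p) → p = 1 ∨ p = t)
    (hC : ∀ T : Subgroup U, T ≤ P → (∀ p ∈ P, p * p = 1 → p ∈ T) →
      (∀ x ∈ T, ∀ y ∈ P, (∃ g, g * e x * g⁻¹ = e y) → y ∈ T) → T = P)
    (S : Sylow 2 G) : (groupFusionSystem (S : Subgroup G)).IsSimple 2 := by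
  classical
  have : Fact (Nat.Prime 2) := ⟨Nat.prime_two⟩
  have hinj : ∀ x ∈ P, ∀ y ∈ P, e x = e y → x = y := fun x hx y hy h =>
    congrArg Subtype.val (injOn hker hP (a₁ := ⟨x, hx⟩) (a₂ := ⟨y, hy⟩) h)
  let S₀ : Sylow 2 (G) :=
    (hP.map e).toSylow (hidx)
  obtain ⟨c, hc⟩ := MulAction.exists_smul_eq (G) S₀ S
  have hmem : ∀ x, x ∈ (S : Subgroup (G)) ↔ ∃ p ∈ P, c * e p * c⁻¹ = x := by
    intro x
    rw [← hc, Sylow.coe_subgroup_smul, Subgroup.mem_smul_pointwise_iff_exists]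
    constructor
    · rintro ⟨_, ⟨p, hp, rfl⟩, rfl⟩
      exact ⟨p, hp, rfl⟩
    · rintro ⟨p, hp, rfl⟩
      exact ⟨e p, ⟨p, hp, rfl⟩, rfl⟩
  have hne1 : e t ≠ 1 := fun h =>
    ht1 (hinj _ hneg 1 P.one_mem (by rw [h, map_one]))
  have hord : ∀ x : G, x * x = 1 → x ≠ 1 → orderOf x = 2 :=
    fun x h h' => orderOf_eq_prime (by rwa [sq]) h'
  have hnorm : ∀ g, (∀ x ∈ (S : Subgroup (G)), g * x * g⁻¹ ∈ (S : Subgroup (G))) →
      ∃ s ∈ (S : Subgroup (G)), ∀ x ∈ (S : Subgroup (G)), g * x * g⁻¹ = s * x * s⁻¹ := by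
    intro g hg
    set h := c⁻¹ * g * c with hh
    have hh' : ∀ p ∈ P, ∃ p' ∈ P, h * e p * h⁻¹ = e p' := by
      intro p hp
      obtain ⟨p', hp', hp''⟩ := (hmem _).1 (hg _ ((hmem _).2 ⟨p, hp, rfl⟩))
      refine ⟨p', hp', ?_⟩
      have := congrArg (fun y => c⁻¹ * y * c) hp''
      simp only [hh] at this ⊢
      group at this ⊢
      exact this.symm
    choose f hfP hf using hh'
    have hf' : Function.Injective (fun p : P => (⟨f p p.2, hfP p p.2⟩ : P)) := by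
      intro a b hab
      have := (hf a a.2).trans ((congrArg (fun y : P => e (y : U)) hab).trans (hf b b.2).symm)
      exact Subtype.ext (hinj _ a.2 _ b.2 (mul_left_cancel (mul_right_cancel this)))
    have hsurj := Finite.injective_iff_surjective.1 hf'
    have hp0 := hfP _ hneg
    have hp0sq : f _ hneg * f _ hneg = 1 := by
      refine hinj _ (P.mul_mem hp0 hp0) _ P.one_mem ?_
      rw [map_mul, ← hf _ hneg, map_one]
      calc h * e t * h⁻¹ * (h * e t * h⁻¹)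
          = h * e (t * t) * h⁻¹ := by rw [map_mul]; group
        _ = 1 := by rw [ht2, map_one, mul_one, mul_inv_cancel]
    have hp0c : ∀ r ∈ P, f _ hneg * r = r * f _ hneg := by
      intro r hr
      obtain ⟨⟨y, hy⟩, hyr⟩ := hsurj ⟨r, hr⟩
      have hyr' : f y hy = r := congrArg Subtype.val hyr
      subst hyr'
      refine hinj _ (P.mul_mem hp0 (hfP _ _)) _ (P.mul_mem (hfP _ _) hp0) ?_
      rw [map_mul, map_mul, ← hf _ hneg, ← hf y hy]
      calc h * e t * h⁻¹ * (h * e y * h⁻¹)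
          = h * e (t * y) * h⁻¹ := by rw [map_mul]; group
        _ = h * e (y * t) * h⁻¹ := by rw [ht]
        _ = _ := by rw [map_mul]; group
    have hcomm : h * e t = e t * h := by
      rcases hZ _ hp0 hp0sq hp0c with h0 | h0
      · have := hf _ hneg
        rw [h0, map_one, conj_eq_one_iff] at this
        exact absurd this hne1
      · have := hf _ hneg
        rw [h0] at this
        exact mul_inv_eq_iff_eq_mul.1 this
    obtain ⟨A, hA⟩ := hcent hcomm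
    obtain ⟨m, hm⟩ := hP.exists_card_eq
    have hAN : ∀ p ∈ P, A * p * A⁻¹ ∈ P := by
      intro p hp
      obtain ⟨h3, hcen⟩ := hker (A := (f p hp)⁻¹ * (A * p * A⁻¹)) (by
        rw [map_mul, map_inv, map_mul, map_mul, map_inv, hA, hf p hp, inv_mul_cancel])
      set k := (f p hp)⁻¹ * (A * p * A⁻¹) with hk
      have hpow : ∀ x ∈ P, x ^ 2 ^ m = 1 := fun x hx => by
        have := pow_card_eq_one' (x := (⟨x, hx⟩ : P))
        rw [hm] at this
        exact congrArg Subtype.val this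
      have hk1 : k = 1 := by
        refine PSLThree.eq_one_of_pow_two_pow_of_cube (k := m) ?_ h3
        have heq : (f p hp * k) ^ 2 ^ m = 1 := by
          rw [hk, mul_inv_cancel_left, conj_pow, hpow p hp, mul_one, mul_inv_cancel]
        rw [Commute.mul_pow (show Commute (f p hp) k from (hcen _).symm), hpow _ (hfP p hp),
          one_mul] at heq
        exact heq
      rw [hk, inv_mul_eq_one] at hk1
      rw [← hk1]
      exact hfP p hp
    obtain ⟨z, hz, s, hs, rfl⟩ := hN A hAN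
    refine ⟨c * e s * c⁻¹, (hmem _).2 ⟨s, hs, rfl⟩, fun x hx => ?_⟩
    obtain ⟨p, hp, rfl⟩ := (hmem x).1 hx
    have key : z * s * p * (z * s)⁻¹ = s * p * s⁻¹ := by
      have := Subgroup.mem_center_iff.1 hz (s * p * s⁻¹)
      calc z * s * p * (z * s)⁻¹ = z * (s * p * s⁻¹) * z⁻¹ := by group
        _ = s * p * s⁻¹ := by rw [← this, mul_inv_cancel_right]
    have hgc : g = c * h * c⁻¹ := by rw [hh]; group
    rw [hgc, ← hA]
    calc c * e (z * s) * c⁻¹ * (c * e p * c⁻¹) * (c * e (z * s) * c⁻¹)⁻¹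
        = c * e (z * s * p * (z * s)⁻¹) * c⁻¹ := by simp only [map_mul, map_inv]; group
      _ = c * e (s * p * s⁻¹) * c⁻¹ := by rw [key]
      _ = _ := by simp only [map_mul, map_inv]; group
  have hsat := H93.isSaturated_groupFusionSystem S
  refine H96.isSimple_of_inner_top _ 2 hsat ?_ ?_ ?_
  · intro h
    have : c * e t * c⁻¹ ∈ (S : Subgroup (G)) := (hmem _).2 ⟨_, hneg, rfl⟩
    rw [h, Subgroup.mem_bot, conj_eq_one_iff] at this
    exact hne1 this
  · refine le_antisymm (fun α hα => ?_) (H93.inn_le_autGroup _ le_rfl)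
    rw [H93.autGroup_groupFusion S le_rfl] at hα
    obtain ⟨g, -, hg⟩ := H93.mem_autInducedBy.1 hα
    obtain ⟨s, hs, hsx⟩ := hnorm g fun x hx => by
      rw [← hg ⟨x, hx⟩]; exact (α ⟨x, hx⟩).2
    exact H96.mem_inn_iff.2 ⟨s, hs, fun x => (hg x).trans (hsx _ x.2)⟩
  · intro T hT
    by_cases hT1 : T = ⊥
    · exact Or.inl hT1
    refine Or.inr (le_antisymm hT.1 ?_)
    have hcl : ∀ x ∈ T, ∀ g, g * x * g⁻¹ ∈ (S : Subgroup (G)) → g * x * g⁻¹ ∈ T := by
      intro x hx g hgx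
      have hzx : Subgroup.zpowers x ≤ T := Subgroup.zpowers_le.2 hx
      refine hT.2 (Subgroup.zpowers x) hzx ((MulAut.conj g).toMonoidHom.comp (Subgroup.zpowers x).subtype)
        ⟨hzx.trans hT.1, ?_, g, fun y => rfl⟩ ⟨x, Subgroup.mem_zpowers x⟩
      rintro ⟨y, hy⟩
      obtain ⟨n, rfl⟩ := Subgroup.mem_zpowers_iff.1 hy
      show g * x ^ n * g⁻¹ ∈ (S : Subgroup (G))
      rw [← conj_zpow]
      exact Subgroup.zpow_mem _ hgx n
    let T' := T.comap ((MulAut.conj c).toMonoidHom.comp e) ⊓ P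
    have hT' : ∀ x, x ∈ T' ↔ c * e x * c⁻¹ ∈ T ∧ x ∈ P := fun x => Iff.rfl
    obtain ⟨a, ha, hao⟩ : ∃ a ∈ T, orderOf a = 2 := by
      have : Nontrivial T := T.nontrivial_iff_ne_bot.2 hT1
      have hTp : IsPGroup 2 T := S.isPGroup'.to_le hT.1
      obtain ⟨n, hn, hcard⟩ := hTp.nontrivial_iff_card.1 this
      obtain ⟨a, ha⟩ := exists_prime_orderOf_dvd_card' 2 (G := T) (hcard ▸ dvd_pow_self 2 hn.ne')
      exact ⟨a, a.2, by rw [Subgroup.orderOf_coe, ha]⟩
    have hinv : ∀ p ∈ P, p * p = 1 → p ∈ T' := by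
      intro p hp hpp
      refine (hT' p).2 ⟨?_, hp⟩
      by_cases hp1 : p = 1
      · simp [hp1]
      have hep : orderOf (e p) = 2 := hord _ (by rw [← map_mul, hpp, map_one])
        fun h => hp1 (hinj _ hp 1 P.one_mem (by rw [h, map_one]))
      obtain ⟨g₁, hg₁⟩ := hinvol _ hao
      obtain ⟨g₂, hg₂⟩ := hinvol _ hep
      have hrw : (c * g₂ * g₁⁻¹) * a * (c * g₂ * g₁⁻¹)⁻¹ = c * e p * c⁻¹ := by
        rw [← hg₁, ← hg₂]; group
      rw [← hrw]
      exact hcl a ha _ (hrw ▸ (hmem _).2 ⟨p, hp, rfl⟩)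
    have htot : T' = P := hC T' inf_le_right hinv fun x hx y hy hxy => by
      obtain ⟨g, hg⟩ := hxy
      refine (hT' y).2 ⟨?_, hy⟩
      have hrw : (c * g * c⁻¹) * (c * e x * c⁻¹) * (c * g * c⁻¹)⁻¹ = c * e y * c⁻¹ := by
        rw [← hg]; group
      rw [← hrw]
      exact hcl _ ((hT' x).1 hx).1 _ (hrw ▸ (hmem _).2 ⟨y, hy, rfl⟩)
    intro x hx
    obtain ⟨p, hp, rfl⟩ := (hmem x).1 hx
    exact ((hT' p).1 (htot.symm ▸ hp)).1

end Cfsg.Agent.H58.PSUThree
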