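import Cfsg.Agent.H58.PSUThree.Setup
import Cfsg.Agent.H58.PSUThree.Criterion

/-!
The criterion for `PSU₃(q)` stated with subgroups of `GL₂`.
-/
set_option autoImplicit false

namespace Cfsg.Agent.H58.PSUThree

open Matrix MatrixGroups Cfsg

variable {F : Type*} [Field F] [Fintype F] {q : ℕ}

lemma two_ne_zero_of_sq (hF : Fintype.card F = q ^ 2) (hodd : q % 2 = 1) : (2 : F) ≠ 0 :=
  PSLThree.two_ne_zero_of_odd_card (by rw [hF, Nat.pow_mod, hodd])

/-- The criterion. -/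
theorem isSimple_of_gl_model (hF : Fintype.card F = q ^ 2) (hodd : q % 2 = 1)
    (P : Subgroup (GL (Fin 2) F)) (hPU : P ≤ GU 2 F q) (hP : IsPGroup 2 P)
    (hcard : ∃ j, Odd j ∧ Nat.card (GU 2 F q) = Nat.card P * j) (hneg : (-1 : GL (Fin 2) F) ∈ P)
    (hN : ∀ A ∈ GU 2 F q, (∀ p ∈ P, A * p * A⁻¹ ∈ P) →
      ∃ z ∈ Subgroup.center (GL (Fin 2) F), z ∈ GU 2 F q ∧ ∃ s ∈ P, A = z * s)
    (hZ : ∀ p ∈ P, p * p = 1 → (∀ r ∈ P, p * r = r * p) → p = 1 ∨ p = -1)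
    (hC : ∀ T : Subgroup (GL (Fin 2) F), T ≤ P → (∀ p ∈ P, p * p = 1 → p ∈ T) →
      (∀ x ∈ T, ∀ y ∈ P, (∃ (hx : x ∈ GU 2 F q) (hy : y ∈ GU 2 F q) (g : PSU 3 F q),
        g * eU hF ⟨x, hx⟩ * g⁻¹ = eU hF ⟨y, hy⟩) → y ∈ T) → T = P)
    (S : Sylow 2 (PSU 3 F q)) : (groupFusionSystem (S : Subgroup (PSU 3 F q))).IsSimple 2 := by
  have h2 := two_ne_zero_of_sq hF hodd
  set P' := P.subgroupOf (GU 2 F q) with hP'def
  have hP'c : Nat.card P' = Nat.card P := Nat.card_congr (Subgroup.subgroupOfEquivOfLe hPU).toEquiv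
  have hP' : IsPGroup 2 P' := hP.of_equiv (Subgroup.subgroupOfEquivOfLe hPU).symm
  have hidx : ¬ 2 ∣ (P'.map (eU hF)).index := by
    have hc : Nat.card (P'.map (eU hF)) = Nat.card P := by
      have : P'.map (eU hF) = ((eU hF).comp P'.subtype).range := by
        rw [MonoidHom.range_comp, Subgroup.range_subtype]
      rw [this, ← hP'c]
      exact (Nat.card_congr (MonoidHom.ofInjective (injOn (eU_eq_one hF) hP')).toEquiv).symm
    obtain ⟨j, hj, hcj⟩ := hcard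
    have hg := card_psu3_eq hF
    rw [hcj, ← (P'.map (eU hF)).card_mul_index, hc] at hg
    have hk : Nat.gcd 3 (q + 1) * (P'.map (eU hF)).index = q ^ 2 * (q ^ 2 - q + 1) * j := by
      apply Nat.eq_of_mul_eq_mul_left (show 0 < (q + 1) * Nat.card P from Nat.mul_pos (by omega) Nat.card_pos)
      calc (q + 1) * Nat.card P * (Nat.gcd 3 (q + 1) * (P'.map (eU hF)).index)
          = Nat.gcd 3 (q + 1) * ((q + 1) * (Nat.card P * (P'.map (eU hF)).index)) := by ring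
        _ = _ := by rw [hg]; ring
    have ho : Odd q := Nat.odd_iff.2 hodd
    have hs : Odd (q ^ 2 - q + 1) := by
      have : Even (q ^ 2 - q) := (Nat.even_sub (Nat.le_self_pow (by norm_num) q)).2
        (by simp [Nat.even_pow])
      exact this.add_one
    have hrhs : Odd (q ^ 2 * (q ^ 2 - q + 1) * j) := (ho.pow.mul hs).mul hj
    rw [← hk] at hrhs
    intro h
    exact Nat.not_even_iff_odd.2 (Nat.odd_mul.1 hrhs).2 (even_iff_two_dvd.2 h)
  refine isSimple_of_model (eU hF) (negOne hF hodd) (fun x => Subtype.ext ?_) (Subtype.ext ?_) ?_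
    (eU_eq_one hF) (fun x hx => exists_conj_involution hF hodd h2 hx)
    (mem_range_of_commute hF hodd h2) P' hP' hidx hneg ?_ ?_ ?_ S
  · simp [negOne]
  · simp [negOne]
  · intro h
    exact PSLThree.neg_one_ne_one h2 (congrArg Subtype.val h)
  · intro A hA
    obtain ⟨z, hz, hzU, s, hs, he⟩ := hN A.1 A.2 fun p hp =>
      hA ⟨p, hPU hp⟩ hp
    exact ⟨⟨z, hzU⟩, Subgroup.mem_center_iff.2 fun g => Subtype.ext (Subgroup.mem_center_iff.1 hz g.1),
      ⟨s, hPU hs⟩, hs, Subtype.ext he⟩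
  · intro p hp hpp hpc
    exact (hZ p.1 hp (congrArg Subtype.val hpp) fun r hr =>
      congrArg Subtype.val (hpc ⟨r, hPU hr⟩ hr)).imp (fun h => Subtype.ext h) fun h => Subtype.ext h
  · intro T hTP hinv hfus
    have hT := hC (T.map (GU 2 F q).subtype) ?_ ?_ ?_
    · refine le_antisymm hTP fun x hx => ?_
      have : x.1 ∈ T.map (GU 2 F q).subtype := hT.symm ▸ hx
      obtain ⟨y, hy, hyx⟩ := this
      rwa [← Subtype.ext (a1 := y) hyx]
    · rintro _ ⟨y, hy, rfl⟩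
      exact hTP hy
    · intro p hp hpp
      exact ⟨⟨p, hPU hp⟩, hinv _ hp (Subtype.ext hpp), rfl⟩
    · rintro _ ⟨x, hx, rfl⟩ y hy ⟨hxU, hyU, g, hg⟩
      exact ⟨⟨y, hyU⟩, hfus x hx ⟨y, hyU⟩ hy ⟨g, hg⟩, rfl⟩

end Cfsg.Agent.H58.PSUThree
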