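import Cfsg.Agent.H58.PSUThree.Setup
import Cfsg.Agent.H58.PSUThree.Model
import Cfsg.Agent.H58.PSLThree.Monomial

/-!
`q ≡ 3 mod 4`: the monomial Sylow 2-subgroup of `GU₂(q)`.
-/
set_option autoImplicit false

namespace Cfsg.Agent.H58.PSUThree

open Matrix MatrixGroups Cfsg
open Cfsg.Agent.H58.PSLThree (dg coe_dg sw coe_sw sw_mul_self sw_dg_sw coe_dg_sw dg_inj extendInvol mem_extendInvol le_extendInvol invol_mem_extendInvol card_extendInvol mem_sylow_of_pow gl_det_ne_zero)

variable {F : Type*} [Field F] [Fintype F] {q : ℕ}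

/-- `q ≡ 3 mod 4`. -/
theorem isSimple_three_mod_four (hF : Fintype.card F = q ^ 2) (hq : q % 4 = 3)
    (S : Sylow 2 (PSU 3 F q)) :
    (groupFusionSystem (S : Subgroup (PSU 3 F q))).IsSimple 2 := by
  classical
  have : Fact (Nat.Prime 2) := ⟨Nat.prime_two⟩
  have hodd : q % 2 = 1 := by omega
  have h2 := two_ne_zero_of_sq hF hodd
  set W : Subgroup Fˣ := (powMonoidHom (q + 1) : Fˣ →* Fˣ).ker with hW
  let μ₀ : Sylow 2 W := default
  set μ : Subgroup Fˣ := (μ₀ : Subgroup W).map W.subtype with hμdef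
  have hμW : ∀ {x}, x ∈ μ → x ^ (q + 1) = 1 := by
    rintro _ ⟨y, -, rfl⟩
    exact y.2
  have hμ : ∀ {x : Fˣ} {k : ℕ}, x ^ (q + 1) = 1 → x ^ 2 ^ k = 1 → x ∈ μ :=
    fun {x k} hx h => ⟨⟨x, hx⟩, mem_sylow_of_pow mul_comm μ₀ (k := k) (Subtype.ext (by simpa using h)), rfl⟩
  have hμc : Nat.card μ = Nat.card (μ₀ : Subgroup W) :=
    Subgroup.card_map_of_injective (Subgroup.subtype_injective _)
  have hμcard : Nat.card μ * (μ₀ : Subgroup W).index = q + 1 := by
    rw [hμc, Subgroup.card_mul_index, hW, H3.card_norm_one_units hF]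
  set D : Subgroup (GL (Fin 2) F) := (μ.prod μ).map dg with hDdef
  have hDmem : ∀ {x}, x ∈ D → ∃ a ∈ μ, ∃ b ∈ μ, dg (a, b) = x := by
    rintro _ ⟨⟨a, b⟩, ⟨ha, hb⟩, rfl⟩
    exact ⟨a, ha, b, hb, rfl⟩
  have hmemD : ∀ {a b}, a ∈ μ → b ∈ μ → dg (a, b) ∈ D :=
    fun {a b} ha hb => ⟨(a, b), ⟨ha, hb⟩, rfl⟩
  have hDw : ∀ x ∈ D, sw * x * sw ∈ D := by
    intro x hx
    obtain ⟨a, ha, b, hb, rfl⟩ := hDmem hx
    rw [sw_dg_sw]; exact hmemD hb ha
  let P := extendInvol D sw sw_mul_self hDw
  have hPmem : ∀ {x}, x ∈ P → ∃ a ∈ μ, ∃ b ∈ μ,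
      x = dg (a, b) ∨ x = dg (a, b) * sw := by
    intro x hx
    rcases mem_extendInvol.1 hx with h | h
    · obtain ⟨a, ha, b, hb, rfl⟩ := hDmem h
      exact ⟨a, ha, b, hb, Or.inl rfl⟩
    · obtain ⟨a, ha, b, hb, he⟩ := hDmem h
      refine ⟨a, ha, b, hb, Or.inr ?_⟩
      rw [he, mul_assoc, sw_mul_self, mul_one]
  have hswD : (sw : GL (Fin 2) F) ∉ D := by
    intro h
    obtain ⟨a, -, b, -, he⟩ := hDmem h
    have := congrFun (congrFun (congrArg (fun A : GL (Fin 2) F => (A : Matrix (Fin 2) (Fin 2) F)) he) 0) 0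
    simp [coe_dg, coe_sw] at this
  have hcardD : Nat.card D = Nat.card μ * Nat.card μ := by
    rw [hDdef, Subgroup.card_map_of_injective (fun x y h => Prod.ext (dg_inj h).1 (dg_inj h).2),
      Nat.card_congr (Subgroup.prodEquiv _ _).toEquiv, Nat.card_prod]
  have hcardP : Nat.card P = 2 * (Nat.card μ * Nat.card μ) := by
    rw [card_extendInvol hswD, hcardD]
  obtain ⟨m, hm⟩ := μ₀.isPGroup'.exists_card_eq
  rw [← hμc] at hm
  have hP : IsPGroup 2 P := IsPGroup.of_card (n := 1 + (m + m)) (by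
    rw [hcardP, hm, pow_add, pow_add, pow_one])
  have hi : Odd (μ₀ : Subgroup W).index :=
    Nat.odd_iff.2 (Nat.two_dvd_ne_zero.1 μ₀.not_dvd_index)
  have hdgU : ∀ {a b : Fˣ}, a ^ (q + 1) = 1 → b ^ (q + 1) = 1 → dg (a, b) ∈ GU 2 F q := by
    intro a b ha hb
    have ha' : (a : F) ^ (q + 1) = 1 := by simpa using congrArg Units.val ha
    have hb' : (b : F) ^ (q + 1) = 1 := by simpa using congrArg Units.val hb
    rw [H3.mem_GU_iff]
    intro u v
    simp [hermForm, Fin.sum_univ_two, coe_dg, Matrix.mulVec, dotProduct, mul_pow]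
    linear_combination (u 0 * v 0 ^ q) * ha' + (u 1 * v 1 ^ q) * hb'
  have hswU : (sw : GL (Fin 2) F) ∈ GU 2 F q := by
    rw [H3.mem_GU_iff]
    intro u v
    simp [hermForm, Fin.sum_univ_two, coe_sw, Matrix.mulVec, dotProduct]
    ring
  have hPU : P ≤ GU 2 F q := by
    intro x hx
    obtain ⟨a, ha, b, hb, rfl | rfl⟩ := hPmem hx
    · exact hdgU (hμW ha) (hμW hb)
    · exact mul_mem (hdgU (hμW ha) (hμW hb)) hswU
  have hidx : ∃ j, Odd j ∧ Nat.card (GU 2 F q) = Nat.card P * j := by
    obtain ⟨t, ht⟩ : ∃ t, q = 4 * t + 3 := ⟨q / 4, by omega⟩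
    refine ⟨q * (2 * t + 1) * ((μ₀ : Subgroup W).index * (μ₀ : Subgroup W).index),
      ((Nat.odd_iff.2 hodd).mul ⟨t, rfl⟩).mul (hi.mul hi), ?_⟩
    rw [hcardP, H3.card_GU hF]
    simp [Finset.prod_range_succ, -Nat.card_eq_fintype_card]
    have e1 : q ^ 2 - 1 = (q + 1) * (2 * (2 * t + 1)) := by
      rw [show (q + 1) = 4 * t + 4 by omega]
      have : q ^ 2 = (4 * t + 4) * (2 * (2 * t + 1)) + 1 := by rw [ht]; ring
      omega
    rw [e1]
    calc q * ((q + 1) * ((q + 1) * (2 * (2 * t + 1))))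
        = 2 * (2 * t + 1) * q * ((q + 1) * (q + 1)) := by ring
      _ = _ := by rw [← hμcard]; ring
  have hm1 : (-1 : Fˣ) ∈ μ := hμ (k := 1)
    ((Even.neg_one_pow ⟨(q + 1) / 2, by omega⟩)) (by simp)
  have hneg1 : (-1 : GL (Fin 2) F) = dg (-1, -1) := Units.ext (by
    ext i j; fin_cases i <;> fin_cases j <;> simp [coe_dg])
  have hne : (-1 : GL (Fin 2) F) ∈ P := by rw [hneg1]; exact le_extendInvol (hmemD hm1 hm1)
  obtain ⟨c, hc, hc1, hc2⟩ : ∃ c ∈ μ, (c : F) ≠ 1 ∧ (c : F) + 1 ≠ 0 := by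
    by_contra hcon
    push Not at hcon
    have hsub : (μ : Set Fˣ) ⊆ {1, -1} := by
      intro x hx
      by_cases hx1 : (x : F) = 1
      · exact Or.inl (Units.ext hx1)
      · refine Or.inr (Units.ext ?_)
        rw [Units.val_neg, Units.val_one]
        exact eq_neg_of_add_eq_zero_left (hcon x hx hx1)
    have h4 : 2 ^ 2 ∣ Nat.card μ := by
      rw [hμc]
      refine μ₀.pow_dvd_card_of_pow_dvd_card ?_
      rw [hW, H3.card_norm_one_units hF]; norm_num; omega
    have hle : Nat.card μ ≤ 2 := by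
      refine le_trans (le_of_eq (Nat.card_coe_set_eq _)) ?_
      refine le_trans (Set.ncard_le_ncard hsub) ?_
      refine le_trans (Set.ncard_insert_le _ _) ?_
      rw [Set.ncard_singleton]
    have h4' := Nat.le_of_dvd Nat.card_pos h4
    linarith [h4', hle]
  have hcP : dg (c, 1) ∈ P := le_extendInvol (hmemD hc (one_mem _))
  have hswP : (sw : GL (Fin 2) F) ∈ P := invol_mem_extendInvol
  refine isSimple_of_gl_model hF hodd P hPU hP hidx hne ?_ ?_ ?_ S
  · -- normalizer
    have hdiag : ∀ u v : Fˣ, dg (u, v) ∈ GU 2 F q → (∀ p ∈ P, dg (u, v) * p * (dg (u, v))⁻¹ ∈ P) →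
        ∃ z ∈ Subgroup.center (GL (Fin 2) F), z ∈ GU 2 F q ∧ ∃ s ∈ P, dg (u, v) = z * s := by
      intro u v huvU huv
      obtain ⟨a, ha, b, -, hab⟩ := hPmem (huv _ hswP)
      have hmul : dg (u, v) * sw * (dg (u, v))⁻¹ = dg (u * v⁻¹, v * u⁻¹) * sw := by
        rw [mul_inv_eq_iff_eq_mul]
        refine Units.ext ?_
        ext i j
        fin_cases i <;> fin_cases j <;> simp [coe_dg, coe_sw, Matrix.mul_apply, Fin.sum_univ_two]
      rw [hmul] at hab
      rcases hab with hab | hab
      · have := congrFun (congrFun (congrArg (fun A : GL (Fin 2) F => (A : Matrix (Fin 2) (Fin 2) F)) hab) 0) 0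
        simp [coe_dg, coe_sw, Matrix.mul_apply, Fin.sum_univ_two] at this
        exact (a.ne_zero this.symm).elim
      · have huv' := (dg_inj (mul_right_cancel hab)).1
        refine ⟨dg (v, v), Subgroup.mem_center_iff.2 fun B => Units.ext ?_, ?_, dg (u * v⁻¹, 1),
          le_extendInvol (hmemD (huv' ▸ ha) (one_mem _)), ?_⟩
        · ext i j
          fin_cases i <;> fin_cases j <;> simp [coe_dg, Matrix.mul_apply, Fin.sum_univ_two, mul_comm]
        · have h := mul_mem huvU (inv_mem (hPU (le_extendInvol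
            (hmemD (huv' ▸ ha) (one_mem _)) : dg (u * v⁻¹, 1) ∈ P)))
          rw [← map_inv, ← map_mul] at h
          simpa using h
        · rw [← map_mul]
          simp
    intro A hAU hA
    obtain ⟨a, -, b, -, hab⟩ := hPmem (hA _ hcP)
    have htr : ((A * dg (c, 1) * A⁻¹ : GL (Fin 2) F) : Matrix (Fin 2) (Fin 2) F).trace = (c : F) + 1 := by
      rw [Units.val_mul, Units.val_mul, Matrix.trace_units_conj, trace_fin_two, coe_dg]
      simp
    rcases hab with hab | hab
    swap
    · rw [hab, coe_dg_sw, trace_fin_two] at htr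
      simp at htr
      exact absurd htr.symm hc2
    rw [mul_inv_eq_iff_eq_mul] at hab
    have hent := congrArg (fun B : GL (Fin 2) F => (B : Matrix (Fin 2) (Fin 2) F)) hab
    have e00 := congrFun (congrFun hent 0) 0
    have e01 := congrFun (congrFun hent 0) 1
    have e10 := congrFun (congrFun hent 1) 0
    have e11 := congrFun (congrFun hent 1) 1
    simp [coe_dg, Matrix.mul_apply, Fin.sum_univ_two] at e00 e01 e10 e11
    set M := (A : Matrix (Fin 2) (Fin 2) F) with hM
    have hdet : M 0 0 * M 1 1 - M 0 1 * M 1 0 ≠ 0 := by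
      rw [← det_fin_two]; exact gl_det_ne_zero A
    have hshape : (M 0 1 = 0 ∧ M 1 0 = 0) ∨ (M 0 0 = 0 ∧ M 1 1 = 0) := by
      by_cases hac : (a : F) = c
      · have h01 : M 0 1 = 0 := by
          by_contra h
          have : M 0 1 * ((a : F) - 1) = 0 := by linear_combination -e01
          exact hc1 (hac ▸ sub_eq_zero.1 ((mul_eq_zero.1 this).resolve_left h))
        refine Or.inl ⟨h01, ?_⟩
        by_contra h
        have hbc : (b : F) = c := by
          have : M 1 0 * ((b : F) - c) = 0 := by linear_combination -e10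
          exact sub_eq_zero.1 ((mul_eq_zero.1 this).resolve_left h)
        have h11 : M 1 1 = 0 := by
          by_contra h'
          have : M 1 1 * ((b : F) - 1) = 0 := by linear_combination -e11
          exact hc1 (hbc ▸ sub_eq_zero.1 ((mul_eq_zero.1 this).resolve_left h'))
        exact hdet (by rw [h01, h11]; ring)
      · have h00 : M 0 0 = 0 := by
          by_contra h
          have : M 0 0 * ((a : F) - c) = 0 := by linear_combination -e00
          exact hac (sub_eq_zero.1 ((mul_eq_zero.1 this).resolve_left h))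
        refine Or.inr ⟨h00, ?_⟩
        by_contra h
        have hb1 : (b : F) = 1 := by
          have : M 1 1 * ((b : F) - 1) = 0 := by linear_combination -e11
          exact sub_eq_zero.1 ((mul_eq_zero.1 this).resolve_left h)
        have h10 : M 1 0 = 0 := by
          by_contra h'
          have : M 1 0 * ((b : F) - c) = 0 := by linear_combination -e10
          exact hc1 ((sub_eq_zero.1 ((mul_eq_zero.1 this).resolve_left h')).symm.trans hb1)
        exact hdet (by rw [h00, h10]; ring)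
    rcases hshape with ⟨h01, h10⟩ | ⟨h00, h11⟩
    · have hu : M 0 0 ≠ 0 := fun h => hdet (by rw [h, h01]; ring)
      have hv : M 1 1 ≠ 0 := fun h => hdet (by rw [h, h10]; ring)
      have hAd : A = dg (Units.mk0 _ hu, Units.mk0 _ hv) := Units.ext (by
        ext i j; fin_cases i <;> fin_cases j <;> simp [coe_dg, ← hM, h01, h10])
      rw [hAd] at hA hAU ⊢
      exact hdiag _ _ hAU hA
    · have hu : M 0 1 ≠ 0 := fun h => hdet (by rw [h, h00]; ring)
      have hv : M 1 0 ≠ 0 := fun h => hdet (by rw [h, h00]; ring)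
      have hAd : A = dg (Units.mk0 _ hu, Units.mk0 _ hv) * sw := Units.ext (by
        rw [coe_dg_sw]
        ext i j; fin_cases i <;> fin_cases j <;> simp [← hM, h00, h11])
      have hAU' : dg (Units.mk0 _ hu, Units.mk0 _ hv) ∈ GU 2 F q := by
        have h := mul_mem hAU (hPU hswP)
        rwa [hAd, mul_assoc, sw_mul_self, mul_one] at h
      obtain ⟨z, hz, hzU, s, hs, he⟩ := hdiag (Units.mk0 _ hu) (Units.mk0 _ hv) hAU' fun p hp => by
        have := hA _ (P.mul_mem (P.mul_mem hswP hp) hswP)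
        rw [hAd] at this
        have hswi : (sw : GL (Fin 2) F)⁻¹ = sw := inv_eq_of_mul_eq_one_right sw_mul_self
        convert this using 1
        rw [_root_.mul_inv_rev, hswi]
        simp only [mul_assoc]
        rw [← mul_assoc sw sw, sw_mul_self, one_mul, ← mul_assoc sw sw, sw_mul_self, one_mul]
      exact ⟨z, hz, hzU, s * sw, P.mul_mem hs hswP, by rw [hAd, he, mul_assoc]⟩
  · -- central involutions
    intro p hp hpp hpc
    obtain ⟨a, -, b, -, hab | hab⟩ := hPmem hp
    · subst hab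
      have h := congrFun (congrFun (congrArg (fun A : GL (Fin 2) F => (A : Matrix (Fin 2) (Fin 2) F)) (hpc _ hswP)) 0) 1
      simp [coe_dg, coe_sw, Matrix.mul_apply, Fin.sum_univ_two] at h
      obtain rfl : a = b := Units.ext h
      rw [← map_mul] at hpp
      have haa : a * a = 1 := (dg_inj (c := 1) (d := 1) (hpp.trans (map_one dg).symm)).1
      rcases (mul_self_eq_one_iff.1 (by rw [← Units.val_mul, haa, Units.val_one] : (a : F) * a = 1)) with h | h
      · left
        rw [show a = 1 from Units.ext h]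
        exact map_one dg
      · right
        rw [hneg1, show a = -1 from Units.ext (by simpa using h)]
    · subst hab
      exfalso
      have h := congrFun (congrFun (congrArg (fun A : GL (Fin 2) F => (A : Matrix (Fin 2) (Fin 2) F)) (hpc _ hcP)) 0) 1
      simp [coe_dg, coe_sw, Matrix.mul_apply, Fin.sum_univ_two] at h
      exact hc1 (by rw [h]; simp)
  · -- strongly closed
    intro T hTP hinv hfus
    have hsT : (sw : GL (Fin 2) F) ∈ T := hinv _ hswP sw_mul_self
    have h1 : ∀ a ∈ μ, dg (a, a⁻¹) ∈ T := by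
      intro a ha
      have hd := hmemD ha (inv_mem ha)
      have hx : dg (a, a⁻¹) * sw ∈ T := hinv _ (P.mul_mem (le_extendInvol hd) hswP) (by
        rw [mul_assoc, ← mul_assoc sw, sw_dg_sw, ← map_mul]
        simp only [Prod.mk_mul_mk, mul_inv_cancel, inv_mul_cancel]
        exact map_one dg)
      have := T.mul_mem hx hsT
      rwa [mul_assoc, sw_mul_self, mul_one] at this
    have h2' : ∀ a ∈ μ, dg (a, 1) ∈ T := by
      intro a ha
      let Q₀ : SpecialLinearGroup (Fin 3) F := ⟨!![1, 0, 0; 0, 0, -1; 0, 1, 0], by simp [det_fin_three]⟩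
      have hQ₀ : Q₀ ∈ SU 3 F q := by
        rw [H3.mem_SU_iff]
        intro u v
        simp [Q₀, hermForm, Fin.sum_univ_three, Matrix.mulVec, dotProduct, (Nat.odd_iff.2 hodd).neg_pow]
        ring
      let Q : SU 3 F q := ⟨Q₀, hQ₀⟩
      have hdU : dg (a, a⁻¹) ∈ GU 2 F q := hdgU (hμW ha) (hμW (inv_mem ha))
      have hdU' : dg (a, 1) ∈ GU 2 F q := hdgU (hμW ha) (one_pow _)
      refine hfus _ (h1 a ha) _ (le_extendInvol (hmemD ha (one_mem _))) ⟨hdU, hdU', proj Q, ?_⟩
      have h : Q * embU hF ⟨_, hdU⟩ = embU hF ⟨_, hdU'⟩ * Q := by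
        refine Subtype.ext (Subtype.ext ?_)
        rw [Subgroup.coe_mul, Subgroup.coe_mul, Matrix.SpecialLinearGroup.coe_mul,
          Matrix.SpecialLinearGroup.coe_mul, coe_embU, coe_embU]
        ext i j
        fin_cases i <;> fin_cases j <;>
          simp [Q, Q₀, PSLThree.blkMat, coe_dg, Matrix.mul_apply, Fin.sum_univ_three, det_fin_two]
      rw [eU, MonoidHom.comp_apply, MonoidHom.comp_apply, ← map_mul, h, map_mul, mul_inv_cancel_right]
    refine le_antisymm hTP fun x hx => ?_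
    have hD : D ≤ T := by
      intro y hy
      obtain ⟨a, ha, b, hb, rfl⟩ := hDmem hy
      have := T.mul_mem (h2' a ha) (T.mul_mem (h1 _ (inv_mem hb)) (h2' b hb))
      rw [← map_mul, ← map_mul] at this
      simpa using this
    rcases mem_extendInvol.1 hx with h | h
    · exact hD h
    · have := T.mul_mem (hD h) hsT
      rwa [mul_assoc, sw_mul_self, mul_one] at this

end Cfsg.Agent.H58.PSUThree
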