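import Cfsg.Agent.H58.PSUThree.Torus
import Cfsg.Agent.H58.PSUThree.Monomial

/-!
`q ≡ 1 mod 4`: the semidihedral Sylow 2-subgroup of `GU₂(q)`.
-/
set_option autoImplicit false

namespace Cfsg.Agent.H58.PSUThree

open Matrix MatrixGroups Cfsg
open Cfsg.Agent.H58.PSLThree (i0 coe_i0 jm coe_jm jm_mul_self ctor mem_ctor ctor_shape ctor_comm jm_conj_entries jm_conj_mem det_ctor mul_jm_conj extendInvol mem_extendInvol le_extendInvol invol_mem_extendInvol card_extendInvol mem_sylow_of_pow)

variable {F : Type*} [Field F] [Fintype F] {q : ℕ}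

/-- `q ≡ 1 mod 4`. -/
theorem isSimple_one_mod_four (hF : Fintype.card F = q ^ 2) (hq : q % 4 = 1)
    (S : Sylow 2 (PSU 3 F q)) :
    (groupFusionSystem (S : Subgroup (PSU 3 F q))).IsSimple 2 := by
  classical
  have : Fact (Nat.Prime 2) := ⟨Nat.prime_two⟩
  have hodd : q % 2 = 1 := by omega
  have h2 := two_ne_zero_of_sq hF hodd
  obtain ⟨t, ht⟩ : ∃ t, q = 4 * t + 1 := ⟨q / 4, by omega⟩
  have hns : ∀ (x : GL (Fin 2) F) (a : F), x ∈ GU 2 F q →
      ((x : Matrix (Fin 2) (Fin 2) F) = a • (1 : Matrix (Fin 2) (Fin 2) F)) → a * a ≠ -1 := by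
    intro x a hx hxa haa
    have hn : a ^ (q + 1) = 1 := by
      have h := H3.mem_GU_iff.1 hx (Pi.single 0 1) (Pi.single 0 1)
      rw [hxa] at h
      simp [hermForm, Fin.sum_univ_two, show q ≠ 0 by omega] at h
      rw [pow_succ']; exact h
    rw [show q + 1 = 2 * (2 * t + 1) by omega, pow_mul, sq, haa, Odd.neg_one_pow ⟨t, rfl⟩] at hn
    exact h2 (by linear_combination -hn)
  let σ : Sylow 2 (ctor (F := F) ⊓ GU 2 F q : Subgroup (GL (Fin 2) F)) := default
  set D : Subgroup (GL (Fin 2) F) := (σ : Subgroup (ctor (F := F) ⊓ GU 2 F q : Subgroup (GL (Fin 2) F))).map (ctor (F := F) ⊓ GU 2 F q : Subgroup (GL (Fin 2) F)).subtype with hDdef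
  have hDC : ∀ {x}, x ∈ D → x ∈ ctor := by
    rintro _ ⟨y, -, rfl⟩; exact y.2.1
  have hcommC : ∀ a b : (ctor (F := F) ⊓ GU 2 F q : Subgroup (GL (Fin 2) F)), a * b = b * a :=
    fun a b => Subtype.ext (ctor_comm a.2.1 b.2.1)
  have hDU : ∀ {x}, x ∈ D → x ∈ GU 2 F q := by
    rintro _ ⟨y, -, rfl⟩; exact y.2.2
  have hjU : (jm : GL (Fin 2) F) ∈ GU 2 F q := jm_mem_GU hodd
  have hDof : ∀ {x : GL (Fin 2) F} {k : ℕ}, x ∈ ctor → x ∈ GU 2 F q → x ^ 2 ^ k = 1 → x ∈ D := by
    intro x k hx hxU hk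
    exact ⟨⟨x, hx, hxU⟩, mem_sylow_of_pow hcommC σ (k := k) (Subtype.ext (by simpa using hk)), rfl⟩
  obtain ⟨m, hm⟩ := σ.isPGroup'.exists_card_eq
  have hcardD : Nat.card D = 2 ^ m := by
    rw [hDdef, Subgroup.card_map_of_injective (Subgroup.subtype_injective _), hm]
  have hDpow : ∀ {x}, x ∈ D → x ^ 2 ^ m = 1 := fun {x} hx => by
    have := pow_card_eq_one' (x := (⟨x, hx⟩ : D))
    rw [hcardD] at this
    exact congrArg Subtype.val this
  have hDw : ∀ x ∈ D, jm * x * jm ∈ D := fun x hx =>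
    hDof (k := m) (jm_conj_mem (hDC hx)) (mul_mem (mul_mem hjU (hDU hx)) hjU) (by
      have hji : (jm : GL (Fin 2) F)⁻¹ = jm := inv_eq_of_mul_eq_one_right jm_mul_self
      have h := conj_pow (i := 2 ^ m) (a := jm) (b := x)
      rw [hji] at h
      rw [h, hDpow hx, mul_one, jm_mul_self])
  let P := extendInvol D jm jm_mul_self hDw
  have hjC : (jm : GL (Fin 2) F) ∉ ctor := by
    rw [mem_ctor]; intro h
    simp [coe_jm] at h
    exact h2 (by linear_combination h)
  have hjD : (jm : GL (Fin 2) F) ∉ D := fun h => hjC (hDC h)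
  have hjP : (jm : GL (Fin 2) F) ∈ P := invol_mem_extendInvol
  have hcardP : Nat.card P = 2 * 2 ^ m := by rw [card_extendInvol hjD, hcardD]
  have hP : IsPGroup 2 P := IsPGroup.of_card (n := 1 + m) (by rw [hcardP, pow_add, pow_one])
  have hσc := (σ : Subgroup (ctor (F := F) ⊓ GU 2 F q : Subgroup (GL (Fin 2) F))).card_mul_index
  rw [card_ctor_GU hF hq, hm] at hσc
  have hi : Odd (σ : Subgroup (ctor (F := F) ⊓ GU 2 F q : Subgroup (GL (Fin 2) F))).index :=
    Nat.odd_iff.2 (Nat.two_dvd_ne_zero.1 σ.not_dvd_index)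
  have hPU : P ≤ GU 2 F q := by
    intro x hx
    rcases mem_extendInvol.1 hx with h | h
    · exact hDU h
    · have := mul_mem (hDU h) hjU
      rwa [mul_assoc, jm_mul_self, mul_one] at this
  have hidx : ∃ j, Odd j ∧ Nat.card (GU 2 F q) = Nat.card P * j := by
    refine ⟨q * (2 * t + 1) * (σ : Subgroup (ctor (F := F) ⊓ GU 2 F q : Subgroup (GL (Fin 2) F))).index,
      ((Nat.odd_iff.2 hodd).mul ⟨t, rfl⟩).mul hi, ?_⟩
    rw [hcardP, H3.card_GU hF]
    simp [Finset.prod_range_succ, -Nat.card_eq_fintype_card]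
    rw [← hσc, show q + 1 = 2 * (2 * t + 1) by omega]; ring
  have hneg1 : (-1 : GL (Fin 2) F) ∈ D := hDof (k := 1) (by rw [mem_ctor]; simp)
    (neg_one_mem_GU hF hodd) (by simp)
  have hi0C : (i0 : GL (Fin 2) F) ∈ ctor := by rw [mem_ctor]; simp [coe_i0]
  have hi0sq : (i0 : GL (Fin 2) F) * i0 = -1 := Units.ext (by
    ext i j; fin_cases i <;> fin_cases j <;> simp [coe_i0, Matrix.mul_apply, Fin.sum_univ_two])
  have hi0D : (i0 : GL (Fin 2) F) ∈ D := hDof (k := 2) hi0C (i0_mem_GU hodd) (by
    rw [show (2 : ℕ) ^ 2 = 2 * 2 from rfl, pow_mul, sq, sq, hi0sq, neg_one_mul, neg_neg])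
  have hdetD : ∀ {x : GL (Fin 2) F}, x ∈ D → (x : Matrix (Fin 2) (Fin 2) F).det = 1 ∨
      (x : Matrix (Fin 2) (Fin 2) F).det = -1 := by
    intro x hx
    set u := GeneralLinearGroup.det x with hu
    have h1 : u ^ 2 ^ m = 1 := by rw [hu, ← map_pow, hDpow hx, map_one]
    have h3 : u ^ (2 * (2 * t + 1)) = 1 := by
      rw [← show q + 1 = 2 * (2 * t + 1) by omega]
      exact Units.ext (by simpa [hu] using H3.det_GU hF ⟨x, hDU hx⟩)
    have hg : Nat.gcd (2 ^ m) (2 * (2 * t + 1)) ∣ 2 := by
      refine Nat.Coprime.dvd_of_dvd_mul_right ?_ (Nat.gcd_dvd_right _ _)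
      exact Nat.Coprime.coprime_dvd_left (Nat.gcd_dvd_left _ _)
        (Nat.Coprime.pow_left m (Nat.coprime_two_left.2 ⟨t, rfl⟩))
    obtain ⟨d, hd⟩ := hg
    have h4 : u * u = 1 := by
      rw [← sq, hd, pow_mul, pow_gcd_eq_one.2 ⟨h1, h3⟩, one_pow]
    have h5 := congrArg Units.val h4
    rw [Units.val_mul, Units.val_one] at h5
    exact mul_self_eq_one_iff.1 (by simpa [hu] using h5)
  have hshape : ∀ {x}, x ∈ P → x ∈ D ∨ ∃ d ∈ D, x = d * jm := fun {x} hx =>
    (mem_extendInvol.1 hx).imp_right fun h => ⟨x * jm, h, by rw [mul_assoc, jm_mul_self, mul_one]⟩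
  have htrj : ∀ {d : GL (Fin 2) F}, d ∈ ctor →
      ((d * jm : GL (Fin 2) F) : Matrix (Fin 2) (Fin 2) F).trace = 0 := by
    intro d hd
    rw [Units.val_mul, ctor_shape hd, trace_fin_two]
    simp [coe_jm, Matrix.mul_apply, Fin.sum_univ_two]
  have hPC : ∀ {x}, x ∈ P → x ∈ ctor → x ∈ D := by
    intro x hx hxC
    rcases hshape hx with h | ⟨d, hd, rfl⟩
    · exact h
    · exact absurd (by simpa using mul_mem (inv_mem (hDC hd)) hxC) hjC
  -- an element of `D` with both coordinates nonzero
  obtain ⟨r, hrD, hr0, hr1⟩ : ∃ r ∈ D, (r : Matrix (Fin 2) (Fin 2) F) 0 0 ≠ 0 ∧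
      (r : Matrix (Fin 2) (Fin 2) F) 1 0 ≠ 0 := by
    by_contra hcon
    push Not at hcon
    have hsub : (D : Set (GL (Fin 2) F)) ⊆ {1, -1, i0, -(i0 : GL (Fin 2) F)} := by
      intro x hx
      have hxC := hDC hx
      have hsh := ctor_shape hxC
      have hd := hdetD hx
      rw [det_ctor hxC] at hd
      by_cases h00 : (x : Matrix (Fin 2) (Fin 2) F) 0 0 = 0
      · rw [h00] at hd hsh
        rcases hd with hd | hd
        · rcases mul_self_eq_one_iff.1 (by linear_combination hd :
              (x : Matrix (Fin 2) (Fin 2) F) 1 0 * (x : Matrix (Fin 2) (Fin 2) F) 1 0 = 1) with h | h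
          · exact Or.inr (Or.inr (Or.inl (Units.ext (by rw [hsh, h]; rfl))))
          · refine Or.inr (Or.inr (Or.inr (Units.ext ?_)))
            rw [hsh, h, Units.val_neg, coe_i0]
            ext i j; fin_cases i <;> fin_cases j <;> simp
        · exact absurd (by linear_combination hd) (hns (x * (-(i0 : GL (Fin 2) F))) _ (mul_mem (hDU hx) (by
            rw [← neg_one_mul]; exact mul_mem (neg_one_mem_GU hF hodd) (i0_mem_GU hodd))) (by
            rw [Units.val_mul, Units.val_neg, coe_i0, hsh]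
            ext i j; fin_cases i <;> fin_cases j <;> simp [Matrix.mul_apply, Fin.sum_univ_two]))
      · have h10 := hcon x hx h00
        rw [h10] at hd hsh
        rcases hd with hd | hd
        · rcases mul_self_eq_one_iff.1 (by linear_combination hd :
              (x : Matrix (Fin 2) (Fin 2) F) 0 0 * (x : Matrix (Fin 2) (Fin 2) F) 0 0 = 1) with h | h
          · refine Or.inl (Units.ext ?_)
            rw [hsh, h]
            ext i j; fin_cases i <;> fin_cases j <;> simp
          · refine Or.inr (Or.inl (Units.ext ?_))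
            rw [hsh, h]
            ext i j; fin_cases i <;> fin_cases j <;> simp
        · exact absurd (by linear_combination hd) (hns x _ (hDU hx) (by
            rw [hsh]
            ext i j; fin_cases i <;> fin_cases j <;> simp))
    have hle : Nat.card D ≤ 4 := by
      refine le_trans (le_of_eq (Nat.card_coe_set_eq _)) ?_
      refine le_trans (Set.ncard_le_ncard hsub) ?_
      have a1 := Set.ncard_insert_le (1 : GL (Fin 2) F) {-1, i0, -(i0 : GL (Fin 2) F)}
      have a2 := Set.ncard_insert_le (-1 : GL (Fin 2) F) {i0, -(i0 : GL (Fin 2) F)}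
      have a3 := Set.ncard_insert_le (i0 : GL (Fin 2) F) {-(i0 : GL (Fin 2) F)}
      rw [Set.ncard_singleton] at a3
      omega
    have h8 : 2 ^ 3 ∣ Nat.card (σ : Subgroup (ctor (F := F) ⊓ GU 2 F q : Subgroup (GL (Fin 2) F))) := σ.pow_dvd_card_of_pow_dvd_card (by
      rw [card_ctor_GU hF hq]
      refine ⟨2 * t ^ 2 + t, ?_⟩
      have : q ^ 2 = 2 ^ 3 * (2 * t ^ 2 + t) + 1 := by rw [ht]; ring
      omega)
    rw [hm, ← hcardD] at h8
    have h8' := Nat.le_of_dvd Nat.card_pos h8
    linarith [h8', hle]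
  have hrC := hDC hrD
  have hrP : r ∈ P := le_extendInvol hrD
  refine isSimple_of_gl_model hF hodd P hPU hP hidx (le_extendInvol hneg1) ?_ ?_ ?_ S
  · -- normalizer
    have hcore : ∀ A : GL (Fin 2) F, A ∈ GU 2 F q → (∀ p ∈ P, A * p * A⁻¹ ∈ P) → A * r = r * A →
        ∃ z ∈ Subgroup.center (GL (Fin 2) F), z ∈ GU 2 F q ∧ ∃ s ∈ P, A = z * s := by
      intro A hAU hA hAr
      have hAC : A ∈ ctor := by
        have h := congrArg (fun B : GL (Fin 2) F => (B : Matrix (Fin 2) (Fin 2) F)) hAr
        simp only [Units.val_mul] at h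
        rw [ctor_shape hrC] at h
        have e00 := congrFun (congrFun h 0) 0
        have e01 := congrFun (congrFun h 0) 1
        simp [Matrix.mul_apply, Fin.sum_univ_two] at e00 e01
        rw [mem_ctor]
        constructor
        · apply mul_left_cancel₀ hr1; linear_combination -e01
        · apply mul_left_cancel₀ hr1; linear_combination e00
      set B := jm * A * jm with hB
      have hBC : B ∈ ctor := jm_conj_mem hAC
      set N := A * B with hNdef
      have hNc : N ∈ Subgroup.center (GL (Fin 2) F) := Subgroup.mem_center_iff.2 fun X => Units.ext (by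
        rw [hNdef, hB, Units.val_mul, Units.val_mul (A * (jm * A * jm)), mul_jm_conj hAC, smul_mul, Matrix.mul_smul,
          one_mul, mul_one])
      set u := A * jm * A⁻¹ * jm with hu
      have huB : u = A * B⁻¹ := by
        rw [hu, hB, _root_.mul_inv_rev, _root_.mul_inv_rev,
          inv_eq_of_mul_eq_one_right (jm_mul_self (F := F))]
        simp only [mul_assoc]
      have hNU : N ∈ GU 2 F q := mul_mem hAU (mul_mem (mul_mem hjU hAU) hjU)
      have huD : u ∈ D := by
        refine hPC (P.mul_mem (hA _ hjP) hjP) ?_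
        show u ∈ ctor
        rw [huB]
        exact mul_mem hAC (inv_mem hBC)
      have hsq : A ^ 2 = u * N := by
        rw [huB, hNdef, sq, mul_assoc A B⁻¹, ← mul_assoc B⁻¹ A, ← ctor_comm hAC (inv_mem hBC),
          mul_assoc A B⁻¹ B, inv_mul_cancel, mul_one]
      have : (σ : Subgroup (ctor (F := F) ⊓ GU 2 F q : Subgroup (GL (Fin 2) F))).Normal :=
        ⟨fun a ha g => by rwa [hcommC g, mul_inv_cancel_right]⟩
      have hAm : A ^ (σ : Subgroup (ctor (F := F) ⊓ GU 2 F q : Subgroup (GL (Fin 2) F))).index ∈ D :=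
        ⟨_, Subgroup.pow_index_mem (σ : Subgroup (ctor (F := F) ⊓ GU 2 F q : Subgroup (GL (Fin 2) F))) ⟨A, hAC, hAU⟩, rfl⟩
      obtain ⟨n, hn⟩ := hi
      rw [hn, pow_succ, pow_mul, hsq,
        Commute.mul_pow (show Commute u N from Subgroup.mem_center_iff.1 hNc u)] at hAm
      refine ⟨(N ^ n)⁻¹, inv_mem (pow_mem hNc n), inv_mem (pow_mem hNU n), (u ^ n)⁻¹ * (u ^ n * N ^ n * A),
        P.mul_mem (inv_mem (pow_mem (le_extendInvol huD) n)) (le_extendInvol hAm), ?_⟩
      rw [← mul_assoc (u ^ n)⁻¹, inv_mul_cancel_left, inv_mul_cancel_left]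
    intro A hAU hA
    have hy := hA r hrP
    have htr : ((A * r * A⁻¹ : GL (Fin 2) F) : Matrix (Fin 2) (Fin 2) F).trace =
        2 * (r : Matrix (Fin 2) (Fin 2) F) 0 0 := by
      rw [Units.val_mul, Units.val_mul, Matrix.trace_units_conj, trace_fin_two, ← (mem_ctor.1 hrC).1,
        two_mul]
    have hdet : ((A * r * A⁻¹ : GL (Fin 2) F) : Matrix (Fin 2) (Fin 2) F).det =
        (r : Matrix (Fin 2) (Fin 2) F).det := by
      rw [Units.val_mul, Units.val_mul, Matrix.det_units_conj]
    rcases hshape hy with hyD | ⟨d, hd, he⟩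
    swap
    · exfalso
      rw [he, htrj (hDC hd)] at htr
      exact hr0 ((mul_eq_zero.1 htr.symm).resolve_left h2)
    set Y := A * r * A⁻¹ with hY
    have hYC := hDC hyD
    have hY0 : (Y : Matrix (Fin 2) (Fin 2) F) 0 0 = (r : Matrix (Fin 2) (Fin 2) F) 0 0 := by
      rw [trace_fin_two, ← (mem_ctor.1 hYC).1] at htr
      apply mul_left_cancel₀ h2
      linear_combination htr
    rw [det_ctor hYC, det_ctor hrC, hY0, add_right_inj, sq, sq, mul_self_eq_mul_self_iff] at hdet
    rcases hdet with h | h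
    · refine hcore A hAU hA (mul_inv_eq_iff_eq_mul.1 (show A * r * A⁻¹ = r from Units.ext ?_))
      rw [← hY, ctor_shape hYC, ctor_shape hrC, hY0, h]
    · have hcj : jm * Y * jm = r := Units.ext (by
        rw [jm_conj_entries hYC, ctor_shape hrC, hY0, h, neg_neg])
      have hji : (jm : GL (Fin 2) F)⁻¹ = jm := inv_eq_of_mul_eq_one_right jm_mul_self
      obtain ⟨z, hz, hzU, s, hs, he⟩ := hcore (jm * A) (mul_mem hjU hAU) (fun p hp => by
          have h' := P.mul_mem (P.mul_mem hjP (hA p hp)) hjP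
          convert h' using 1
          rw [_root_.mul_inv_rev, hji]
          simp only [mul_assoc]) (by
          rw [← mul_inv_eq_iff_eq_mul, _root_.mul_inv_rev, hji]
          refine Eq.trans ?_ hcj
          rw [hY]
          simp only [mul_assoc])
      refine ⟨z, hz, hzU, jm * s, P.mul_mem hjP hs, ?_⟩
      rw [← mul_assoc, ← Subgroup.mem_center_iff.1 hz jm, mul_assoc, ← he, ← mul_assoc, jm_mul_self,
        one_mul]
  · -- central involutions
    intro p hp hpp hpc
    rcases hshape hp with hpD | ⟨d, hd, rfl⟩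
    · have hpC := hDC hpD
      have h := congrArg (fun B : GL (Fin 2) F => (B : Matrix (Fin 2) (Fin 2) F)) (hpc _ hjP)
      simp only [Units.val_mul] at h
      rw [ctor_shape hpC] at h
      have e01 := congrFun (congrFun h 0) 1
      simp [coe_jm, Matrix.mul_apply, Fin.sum_univ_two] at e01
      have h10 : (p : Matrix (Fin 2) (Fin 2) F) 1 0 = 0 := by
        have : (2 : F) * (p : Matrix (Fin 2) (Fin 2) F) 1 0 = 0 := by linear_combination e01
        exact (mul_eq_zero.1 this).resolve_left h2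
      have hsh := ctor_shape hpC
      rw [h10] at hsh
      have hsq := congrArg (fun B : GL (Fin 2) F => (B : Matrix (Fin 2) (Fin 2) F) 0 0) hpp
      simp only [Units.val_mul] at hsq
      rw [hsh] at hsq
      simp [Matrix.mul_apply, Fin.sum_univ_two] at hsq
      rcases mul_self_eq_one_iff.1 hsq with h' | h'
      · left; refine Units.ext ?_
        rw [hsh, h']
        ext i j; fin_cases i <;> fin_cases j <;> simp
      · right; refine Units.ext ?_
        rw [hsh, h']
        ext i j; fin_cases i <;> fin_cases j <;> simp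
    · exfalso
      have h := hpc r hrP
      rw [mul_assoc, ← mul_assoc r, ← ctor_comm (hDC hd) hrC, mul_assoc] at h
      have h' := congrArg (fun B : GL (Fin 2) F => (B : Matrix (Fin 2) (Fin 2) F) 1 0) (mul_left_cancel h)
      simp only [Units.val_mul] at h'
      rw [ctor_shape hrC] at h'
      simp [coe_jm, Matrix.mul_apply, Fin.sum_univ_two] at h'
      have : (2 : F) * (r : Matrix (Fin 2) (Fin 2) F) 1 0 = 0 := by linear_combination -h'
      exact hr1 ((mul_eq_zero.1 this).resolve_left h2)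
  · -- strongly closed
    intro T hTP hinv hfus
    have hjT : (jm : GL (Fin 2) F) ∈ T := hinv _ hjP jm_mul_self
    have hone : ∀ d ∈ D, (d : Matrix (Fin 2) (Fin 2) F).det = 1 → d ∈ T := by
      intro d hd hdd
      have hx : d * jm ∈ T := hinv _ (P.mul_mem (le_extendInvol hd) hjP) (by
        refine Units.ext ?_
        rw [show d * jm * (d * jm) = d * (jm * d * jm) by simp only [mul_assoc],
          mul_jm_conj (hDC hd), hdd, one_smul, Units.val_one])
      have := T.mul_mem hx hjT
      rwa [mul_assoc, jm_mul_self, mul_one] at this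
    have hi0T : (i0 : GL (Fin 2) F) ∈ T := hone _ hi0D (by simp [coe_i0, det_fin_two])
    have hD : D ≤ T := by
      intro d hd
      rcases hdetD hd with h | h
      · exact hone d hd h
      · have hdjU : d * jm ∈ GU 2 F q := mul_mem (hDU hd) hjU
        obtain ⟨g, hgU, hg⟩ := conj_i0_of_sq hF hq hdjU (Units.ext (by
          rw [show d * jm * (d * jm) = d * (jm * d * jm) by simp only [mul_assoc],
            mul_jm_conj (hDC hd), h, Units.val_neg, Units.val_one, neg_one_smul]))
        have hx : d * jm ∈ T := hfus _ hi0T _ (P.mul_mem (le_extendInvol hd) hjP)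
          ⟨i0_mem_GU hodd, hdjU, eU hF ⟨g, hgU⟩,
            by rw [← map_inv, ← map_mul, ← map_mul]; exact congrArg _ (Subtype.ext hg)⟩
        have := T.mul_mem hx hjT
        rwa [mul_assoc, jm_mul_self, mul_one] at this
    refine le_antisymm hTP fun x hx => ?_
    rcases hshape hx with h | ⟨d, hd, rfl⟩
    · exact hD h
    · exact T.mul_mem (hD hd) hjT

/-- The 2-fusion system of `PSU₃(q)`, `q` odd, is simple. -/
theorem isSimple_psu3 (hF : Fintype.card F = q ^ 2) (hodd : q % 2 = 1) (S : Sylow 2 (PSU 3 F q)) :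
    (groupFusionSystem (S : Subgroup (PSU 3 F q))).IsSimple 2 := by
  by_cases h : q % 4 = 1
  · exact isSimple_one_mod_four hF h S
  · exact isSimple_three_mod_four hF (by omega) S

end Cfsg.Agent.H58.PSUThree
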