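import Cfsg.Agent.H58.PSUThree.Model
import Cfsg.Agent.H58.PSLThree.Semidihedral

/-!
`q ≡ 1 mod 4`: the torus `ctor ⊓ GU₂(q)` of order `q² - 1`, and elements of square `-1`.
-/
set_option autoImplicit false

namespace Cfsg.Agent.H58.PSUThree

open Matrix MatrixGroups Cfsg
open Cfsg.Agent.H58.PSLThree (i0 coe_i0 jm coe_jm ctor mem_ctor ctor_shape det_ctor)

variable {F : Type*} [Field F] [Fintype F] {q : ℕ}

lemma exists_sqrt_neg_one (hF : Fintype.card F = q ^ 2) (hq : q % 4 = 1) :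
    ∃ ι : F, ι * ι = -1 ∧ ι ^ q = ι := by
  have h : IsSquare (-1 : F) := FiniteField.isSquare_neg_one_iff.2 (by
    rw [hF, Nat.pow_mod, hq]; decide)
  obtain ⟨ι, hι⟩ := h
  refine ⟨ι, hι.symm, ?_⟩
  obtain ⟨t, ht⟩ : ∃ t, q = 4 * t + 1 := ⟨q / 4, by omega⟩
  rw [ht, pow_succ, pow_mul, show ι ^ 4 = (ι * ι) * (ι * ι) by ring, ← hι]
  simp

lemma i0_mem_GU (hodd : q % 2 = 1) : (i0 : GL (Fin 2) F) ∈ GU 2 F q := by
  rw [H3.mem_GU_iff]
  intro u v
  simp [hermForm, Fin.sum_univ_two, coe_i0, Matrix.mulVec, dotProduct, (Nat.odd_iff.2 hodd).neg_pow]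
  ring

lemma jm_mem_GU (hodd : q % 2 = 1) : (jm : GL (Fin 2) F) ∈ GU 2 F q := by
  rw [H3.mem_GU_iff]
  intro u v
  simp [hermForm, Fin.sum_univ_two, coe_jm, Matrix.mulVec, dotProduct, (Nat.odd_iff.2 hodd).neg_pow]

lemma ctor_unitary_eqs (hF : Fintype.card F = q ^ 2) (hodd : q % 2 = 1) {A : GL (Fin 2) F}
    (hA : A ∈ ctor ⊓ GU 2 F q) :
    (A : Matrix (Fin 2) (Fin 2) F) 0 0 * (A : Matrix (Fin 2) (Fin 2) F) 0 0 ^ q +
      (A : Matrix (Fin 2) (Fin 2) F) 1 0 * (A : Matrix (Fin 2) (Fin 2) F) 1 0 ^ q = 1 ∧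
    (A : Matrix (Fin 2) (Fin 2) F) 1 0 * (A : Matrix (Fin 2) (Fin 2) F) 0 0 ^ q -
      (A : Matrix (Fin 2) (Fin 2) F) 0 0 * (A : Matrix (Fin 2) (Fin 2) F) 1 0 ^ q = 0 := by
  have hU : A ∈ GU 2 F q := hA.2
  have hq0 : q ≠ 0 := by omega
  constructor
  · have h := H3.mem_GU_iff.1 hU (Pi.single 0 1) (Pi.single 0 1)
    simp [hermForm, Fin.sum_univ_two, hq0] at h
    exact h
  · have h := H3.mem_GU_iff.1 hU (Pi.single 0 1) (Pi.single 1 1)
    rw [ctor_shape hA.1] at h
    simp [hermForm, Fin.sum_univ_two, hq0, (Nat.odd_iff.2 hodd).neg_pow] at h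
    linear_combination h

lemma card_ctor_GU (hF : Fintype.card F = q ^ 2) (hq : q % 4 = 1) :
    Nat.card (ctor (F := F) ⊓ GU 2 F q : Subgroup (GL (Fin 2) F)) = q ^ 2 - 1 := by
  classical
  have hodd : q % 2 = 1 := by omega
  have h2 := two_ne_zero_of_sq hF hodd
  obtain ⟨ι, hι, hιq⟩ := exists_sqrt_neg_one hF hq
  have hι0 : ι ≠ 0 := fun h => by
    rw [h, mul_zero] at hι
    exact neg_ne_zero.2 one_ne_zero hι.symm
  have hq0 : q ≠ 0 := by omega
  have h2q : (2 : F) ^ q = 2 := by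
    rw [show (2 : F) = 1 + 1 by norm_num, H3.add_pow_q hF, one_pow]
  let φ : (ctor (F := F) ⊓ GU 2 F q : Subgroup (GL (Fin 2) F)) → {u : F // u ≠ 0} := fun A =>
    ⟨((A : GL (Fin 2) F) : Matrix (Fin 2) (Fin 2) F) 0 0 + ι * ((A : GL (Fin 2) F) : Matrix (Fin 2) (Fin 2) F) 1 0,
      fun h => by
        have hd := det_ctor A.2.1
        refine PSLThree.gl_det_ne_zero (A : GL (Fin 2) F) ?_
        rw [hd]
        linear_combination (((A : GL (Fin 2) F) : Matrix (Fin 2) (Fin 2) F) 0 0 -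
          ι * ((A : GL (Fin 2) F) : Matrix (Fin 2) (Fin 2) F) 1 0) * h +
          ((A : GL (Fin 2) F) : Matrix (Fin 2) (Fin 2) F) 1 0 ^ 2 * hι⟩
  have hφ : Function.Bijective φ := by
    constructor
    · intro A B h
      have hu := congrArg Subtype.val h
      simp only [φ] at hu
      obtain ⟨a1, a2⟩ := ctor_unitary_eqs hF hodd A.2
      obtain ⟨b1, b2⟩ := ctor_unitary_eqs hF hodd B.2
      refine Subtype.ext (Units.ext ?_)
      rw [ctor_shape A.2.1, ctor_shape B.2.1]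
      set x := ((A : GL (Fin 2) F) : Matrix (Fin 2) (Fin 2) F) 0 0
      set y := ((A : GL (Fin 2) F) : Matrix (Fin 2) (Fin 2) F) 1 0
      set x' := ((B : GL (Fin 2) F) : Matrix (Fin 2) (Fin 2) F) 0 0
      set y' := ((B : GL (Fin 2) F) : Matrix (Fin 2) (Fin 2) F) 1 0
      have huq : (x + ι * y) ^ q = x ^ q + ι * y ^ q := by
        rw [H3.add_pow_q hF, mul_pow, hιq]
      have huq' : (x' + ι * y') ^ q = x' ^ q + ι * y' ^ q := by
        rw [H3.add_pow_q hF, mul_pow, hιq]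
      have e1 : (x - ι * y) * (x + ι * y) ^ q = 1 := by
        rw [huq]; linear_combination a1 - ι * a2 - y * y ^ q * hι
      have e2 : (x' - ι * y') * (x' + ι * y') ^ q = 1 := by
        rw [huq']; linear_combination b1 - ι * b2 - y' * y' ^ q * hι
      rw [← hu] at e2
      have hne : (x + ι * y) ^ q ≠ 0 := right_ne_zero_of_mul_eq_one e1
      have hv : x - ι * y = x' - ι * y' := mul_right_cancel₀ hne (e1.trans e2.symm)
      have hx : x = x' := by
        apply mul_left_cancel₀ h2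
        linear_combination hu + hv
      have hy : y = y' := by
        apply mul_left_cancel₀ (mul_ne_zero h2 hι0)
        linear_combination hu - hv
      rw [hx, hy]
    · rintro ⟨u, hu⟩
      set v := (u ^ q)⁻¹ with hv
      have huq : u ^ q ≠ 0 := pow_ne_zero _ hu
      have hvu : v * u ^ q = 1 := inv_mul_cancel₀ huq
      have hvq : v ^ q * u = 1 := by rw [hv, inv_pow, H3.pow_q_pow_q hF, inv_mul_cancel₀ hu]
      set x := (u + v) / 2 with hx
      set y := (u - v) / (2 * ι) with hy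
      have hxq : x ^ q = (u ^ q + v ^ q) / 2 := by rw [hx, div_pow, H3.add_pow_q hF, h2q]
      have hyq : y ^ q = (u ^ q - v ^ q) / (2 * ι) := by
        rw [hy, div_pow, sub_eq_add_neg u v, H3.add_pow_q hF, (Nat.odd_iff.2 hodd).neg_pow, mul_pow, h2q,
          hιq, ← sub_eq_add_neg]
      have n1 : x * x ^ q + y * y ^ q = 1 := by
        rw [hxq, hyq, hx, hy]
        field_simp
        rw [show ι ^ 2 = -1 by rw [sq, hι]]
        linear_combination (-2 : F) * hvu + (-2 : F) * hvq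
      have n2 : y * x ^ q - x * y ^ q = 0 := by
        rw [hxq, hyq, hx, hy]
        field_simp
        linear_combination (2 : F) * hvq - (2 : F) * hvu
      have hdet : (!![x, -y; y, x]).det ≠ 0 := by
        have e : x ^ 2 + y ^ 2 = u * v := by
          rw [hx, hy]; field_simp
          rw [show ι ^ 2 = -1 by rw [sq, hι]]
          ring
        rw [det_fin_two_of, show x * x - -y * y = x ^ 2 + y ^ 2 by ring, e]
        exact mul_ne_zero hu (left_ne_zero_of_mul_eq_one hvu)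
      refine ⟨⟨GeneralLinearGroup.mkOfDetNeZero !![x, -y; y, x] hdet, ?_, ?_⟩, ?_⟩
      · refine mem_ctor.2 ?_
        show !![x, -y; y, x] 0 0 = !![x, -y; y, x] 1 1 ∧ !![x, -y; y, x] 0 1 = -!![x, -y; y, x] 1 0
        simp
      · refine H3.mem_GU_iff.2 fun a b => ?_
        show hermForm 2 F q (!![x, -y; y, x] *ᵥ a) (!![x, -y; y, x] *ᵥ b) = _
        simp [hermForm, Fin.sum_univ_two, Matrix.mulVec, dotProduct, H3.add_pow_q hF, mul_pow,
          (Nat.odd_iff.2 hodd).neg_pow]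
        linear_combination (a 0 * b 0 ^ q + a 1 * b 1 ^ q) * n1 + (a 0 * b 1 ^ q - a 1 * b 0 ^ q) * n2
      · refine Subtype.ext ?_
        show !![x, -y; y, x] 0 0 + ι * !![x, -y; y, x] 1 0 = u
        simp [hx, hy]
        field_simp
        ring
  rw [Nat.card_eq_of_bijective φ hφ, Nat.card_eq_fintype_card, Fintype.card_subtype_compl,
    Fintype.card_subtype_eq, hF]

/-- An element of square `-1` in `GU₂(q)`, not interchanging isotropy, is conjugate to `i0`. -/
lemma conj_i0_of_sq (hF : Fintype.card F = q ^ 2) (hq : q % 4 = 1) {A : GL (Fin 2) F}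
    (hA : A ∈ GU 2 F q) (hA2 : A * A = -1) :
    ∃ g ∈ GU 2 F q, g * i0 * g⁻¹ = A := by
  have hodd : q % 2 = 1 := by omega
  have h2 := two_ne_zero_of_sq hF hodd
  obtain ⟨ι, hι, hιq⟩ := exists_sqrt_neg_one hF hq
  have hq0 : q ≠ 0 := by omega
  set w : Fin 2 → F := Pi.single 0 1 with hw
  set M := (A : Matrix (Fin 2) (Fin 2) F) with hM
  have hMM : ∀ x : Fin 2 → F, M *ᵥ (M *ᵥ x) = -x := fun x => by
    rw [mulVec_mulVec, hM, ← Units.val_mul, hA2, Units.val_neg, Units.val_one, neg_mulVec, one_mulVec]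
  have hp : ∀ x y, hermForm 2 F q (M *ᵥ x) (M *ᵥ y) = hermForm 2 F q x y := H3.mem_GU_iff.1 hA
  set a := M *ᵥ w + ι • w with ha
  set b := M *ᵥ w - ι • w with hb
  have hMa : M *ᵥ a = ι • a := by
    rw [ha, mulVec_add, mulVec_smul, hMM, smul_add, smul_smul, hι, neg_one_smul, add_comm]
  have hMb : M *ᵥ b = (-ι) • b := by
    rw [hb, mulVec_sub, mulVec_smul, hMM, smul_sub, smul_smul, neg_mul, hι, neg_neg, one_smul, neg_smul]
    abel
  have hnι : (-ι) ^ q = -ι := by rw [(Nat.odd_iff.2 hodd).neg_pow, hιq]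
  have iso : ∀ (x : Fin 2 → F) (l : F), l * l = -1 → l ^ q = l → M *ᵥ x = l • x →
      hermForm 2 F q x x = 0 := by
    intro x l hl hlq hx
    have h := hp x x
    rw [hx, H3.hermForm_smul_left hF, H3.hermForm_smul_right hF, hlq, ← mul_assoc, hl] at h
    have : (2 : F) * hermForm 2 F q x x = 0 := by linear_combination -h
    exact (mul_eq_zero.1 this).resolve_left h2
  have haa := iso a ι hι hιq hMa
  have hbb := iso b (-ι) (by rw [neg_mul_neg, hι]) hnι hMb
  have hww : hermForm 2 F q w w = 1 := by rw [hw, H3.hermForm_single_left]; simp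
  set s := hermForm 2 F q w (M *ᵥ w) with hs
  have hsw : hermForm 2 F q (M *ᵥ w) w = s ^ q := by rw [hs, H3.hermForm_pow_q hF]
  have hsq : s ^ q = -s := by
    rw [← hsw, hs, ← hp (M *ᵥ w) w, hMM]
    exact (H3.hermForm_neg_left hF _ _)
  have hc : hermForm 2 F q a b = 2 + 2 * ι * s := by
    rw [ha, hb, H3.hermForm_sub_right hF, H3.hermForm_add_left hF, H3.hermForm_add_left hF,
      H3.hermForm_smul_left hF, H3.hermForm_smul_left hF, H3.hermForm_smul_right hF,
      H3.hermForm_smul_right hF, hp, hww, hsw, hsq, hιq, ← hs]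
    linear_combination -hι
  have hc0 : hermForm 2 F q a b ≠ 0 := by
    rw [hc]
    intro h0
    have hs' : s = ι := by
      apply mul_left_cancel₀ h2
      linear_combination (-ι) * h0 + 2 * s * hι
    rw [hs', hιq] at hsq
    have : (2 : F) * ι = 0 := by linear_combination hsq
    rcases mul_eq_zero.1 this with h' | h'
    · exact h2 h'
    · rw [h', mul_zero] at hι
      exact neg_ne_zero.2 one_ne_zero hι.symm
  have h2q : (2 : F) ^ q = 2 := by
    rw [show (2 : F) = 1 + 1 by norm_num, H3.add_pow_q hF, one_pow]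
  set c := hermForm 2 F q a b with hcdef
  have hba : hermForm 2 F q b a = c ^ q := by rw [hcdef, H3.hermForm_pow_q hF]
  set t := ((2 * c)⁻¹) ^ q with ht
  have htc : t ^ q * c = 2⁻¹ := by
    rw [ht, H3.pow_q_pow_q hF]; field_simp
  have htc' : t * c ^ q = 2⁻¹ := by
    rw [ht, ← mul_pow]
    rw [show (2 * c)⁻¹ * c = 2⁻¹ by field_simp, inv_pow, h2q]
  set v := a + t • b with hv
  have hMv : M *ᵥ v = ι • a + (t * -ι) • b := by
    rw [hv, mulVec_add, mulVec_smul, hMa, hMb, smul_smul]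
  have hvv : hermForm 2 F q v v = 1 := by
    rw [hv]
    simp only [H3.hermForm_add_left hF, H3.hermForm_add_right hF, H3.hermForm_smul_left hF,
      H3.hermForm_smul_right hF, haa, hbb, hba, ← hcdef, mul_zero, zero_add, add_zero]
    rw [htc, htc']
    field_simp
    norm_num
  have hvMv : hermForm 2 F q v (M *ᵥ v) = 0 := by
    rw [hMv, hv]
    simp only [H3.hermForm_add_left hF, H3.hermForm_add_right hF, H3.hermForm_smul_left hF,
      H3.hermForm_smul_right hF, haa, hbb, hba, ← hcdef, mul_zero, zero_add, add_zero,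
      mul_pow, hnι, hιq]
    linear_combination (-ι) * htc + ι * htc'
  have hMvv : hermForm 2 F q (M *ᵥ v) v = 0 := by
    rw [← H3.hermForm_pow_q hF, hvMv, zero_pow hq0]
  have hMvMv : hermForm 2 F q (M *ᵥ v) (M *ᵥ v) = 1 := by rw [hp, hvv]
  set P : Matrix (Fin 2) (Fin 2) F := !![v 0, (M *ᵥ v) 0; v 1, (M *ᵥ v) 1] with hP
  have hPmul : ∀ x : Fin 2 → F, P *ᵥ x = x 0 • v + x 1 • (M *ᵥ v) := by
    intro x
    ext i
    fin_cases i <;>
      simp [hP, Matrix.mulVec, dotProduct, Fin.sum_univ_two, Pi.add_apply, mul_comm]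
  have hPpres : ∀ x y, hermForm 2 F q (P *ᵥ x) (P *ᵥ y) = hermForm 2 F q x y := by
    intro x y
    rw [hPmul, hPmul]
    simp only [H3.hermForm_add_left hF, H3.hermForm_add_right hF, H3.hermForm_smul_left hF,
      H3.hermForm_smul_right hF, hvv, hvMv, hMvv, hMvMv]
    simp [hermForm, Fin.sum_univ_two]
  have hPdet : P.det ≠ 0 := by
    intro h
    obtain ⟨x, hx, hx0⟩ := Matrix.exists_mulVec_eq_zero_iff.2 h
    obtain ⟨z, hz⟩ := H3.exists_hermForm_eq_one hF hx
    rw [← hPpres, hx0, H3.hermForm_zero_right hF] at hz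
    exact zero_ne_one hz
  refine ⟨GeneralLinearGroup.mkOfDetNeZero P hPdet, H3.mem_GU_iff.2 hPpres, ?_⟩
  rw [mul_inv_eq_iff_eq_mul]
  refine Units.ext ?_
  rw [Units.val_mul, Units.val_mul]
  show P * (i0 : GL (Fin 2) F).1 = M * P
  have key : ∀ x, (P * (i0 : GL (Fin 2) F).1) *ᵥ x = (M * P) *ᵥ x := by
    intro x
    rw [← mulVec_mulVec, ← mulVec_mulVec, hPmul, hPmul, mulVec_add M (x 0 • v), mulVec_smul M (x 0), mulVec_smul M (x 1), hMM,
      coe_i0]
    rw [show (!![(0 : F), -1; 1, 0] *ᵥ x) 0 = -x 1 by simp [Matrix.mulVec, dotProduct, Fin.sum_univ_two],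
      show (!![(0 : F), -1; 1, 0] *ᵥ x) 1 = x 0 by simp [Matrix.mulVec, dotProduct, Fin.sum_univ_two]]
    module
  exact Matrix.ext_of_mulVec_single fun i => key _

end Cfsg.Agent.H58.PSUThree
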